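import Cfsg.Agent.H533.Wf.Aut

/-!
# Configurations in `Aut K`: conjugation, inversion (helper174)
-/

set_option autoImplicit false
set_option linter.unusedSectionVars false

namespace Cfsg.Agent.H174.WT.Conf

universe v

open Subgroup Cfsg Cfsg.Agent.H533.Wf

variable {K : Type v} [Group K] [Finite K] {Γ : Subgroup (MulAut K)} {C D : Set (MulAut K)} {p : ℕ}

/-- Conjugation of a configuration by an automorphism of `K`. -/
theorem conjAut (h : ACfg p Γ C D) (α : MulAut K) :
    ACfg p (Γ.map (MulAut.conj α).toMonoidHom) ((MulAut.conj α) '' C) ((MulAut.conj α) '' D) := by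
  have hcl : ∀ c d : MulAut K, (Subgroup.closure ({c, d} : Set (MulAut K))).map (MulAut.conj α).toMonoidHom =
      Subgroup.closure ({(MulAut.conj α) c, (MulAut.conj α) d} : Set (MulAut K)) := by
    intro c d
    rw [MonoidHom.map_closure, Set.image_pair]
    rfl
  have hcard : Nat.card (Γ.map (MulAut.conj α).toMonoidHom) = Nat.card Γ :=
    Nat.card_congr (Γ.equivMapOfInjective _ (MulAut.conj α).injective).symm.toEquiv
  exact
    { inn := by
        rintro _ ⟨k, rfl⟩
        refine ⟨MulAut.conj (α⁻¹ k), h.inn ⟨_, rfl⟩, ?_⟩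
        ext x
        show α (α⁻¹ k * α⁻¹ x * (α⁻¹ k)⁻¹) = k * x * k⁻¹
        rw [map_mul, map_mul, map_inv, MulAut.apply_inv_self, MulAut.apply_inv_self]
      subC := by rintro _ ⟨c, hc, rfl⟩; exact ⟨c, h.subC hc, rfl⟩
      subD := by rintro _ ⟨c, hc, rfl⟩; exact ⟨c, h.subD hc, rfl⟩
      conjC := by
        rintro _ ⟨g, hg, rfl⟩ _ ⟨c, hc, rfl⟩
        exact ⟨_, h.conjC g hg c hc, by rw [map_mul, map_mul, map_inv]; rfl⟩
      conjD := by
        rintro _ ⟨g, hg, rfl⟩ _ ⟨c, hc, rfl⟩
        exact ⟨_, h.conjD g hg c hc, by rw [map_mul, map_mul, map_inv]; rfl⟩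
      ordC := by
        rintro _ ⟨c, hc, rfl⟩
        rw [MulEquiv.orderOf_eq]; exact h.ordC c hc
      ordD := by
        rintro _ ⟨c, hc, rfl⟩
        rw [MulEquiv.orderOf_eq]; exact h.ordD c hc
      neC := h.neC.image _
      neD := h.neD.image _
      pair := by
        rintro _ ⟨c, hc, rfl⟩ _ ⟨d, hd, rfl⟩
        rw [← hcl]
        exact (h.pair c hc d hd).map _
      free := by
        rintro _ ⟨c, hc, rfl⟩ _ ⟨d, hd, rfl⟩
        rw [← hcl]
        exact (h.free c hc d hd).map _
      simple := h.simple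
      nc := h.nc
      dvd := h.dvd
      ih := by
        intro X _ _ hX
        exact h.ih X (by rw [← hcard]; exact hX) }

/-- Inversion of the first set. -/
theorem invLeft (h : ACfg p Γ C D) : ACfg p Γ {x | x⁻¹ ∈ C} D := by
  have hcl : ∀ c d : MulAut K, Subgroup.closure ({c, d} : Set (MulAut K)) = Subgroup.closure {c⁻¹, d} := by
    intro c d
    apply le_antisymm
    · rw [Subgroup.closure_le]
      rintro x (rfl | rfl)
      · exact inv_mem_iff.mp (Subgroup.subset_closure (by simp))
      · exact Subgroup.subset_closure (by simp)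
    · rw [Subgroup.closure_le]
      rintro x (rfl | rfl)
      · exact inv_mem (Subgroup.subset_closure (by simp))
      · exact Subgroup.subset_closure (by simp)
  exact
    { inn := h.inn
      subC := fun c hc => inv_mem_iff.mp (h.subC hc)
      subD := h.subD
      conjC := fun g hg c hc => by
        have := h.conjC g hg _ hc
        have e : (g * c * g⁻¹)⁻¹ = g * c⁻¹ * g⁻¹ := by group
        show (g * c * g⁻¹)⁻¹ ∈ C
        rwa [e]
      conjD := h.conjD
      ordC := fun c hc => by rw [← orderOf_inv]; exact h.ordC _ hc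
      ordD := h.ordD
      neC := by
        obtain ⟨c, hc⟩ := h.neC
        exact ⟨c⁻¹, by rwa [Set.mem_setOf_eq, inv_inv]⟩
      neD := h.neD
      pair := fun c hc d hd => by rw [hcl]; exact h.pair _ hc _ hd
      free := fun c hc d hd => by rw [hcl]; exact h.free _ hc _ hd
      simple := h.simple
      nc := h.nc
      dvd := h.dvd
      ih := h.ih }

end Cfsg.Agent.H174.WT.Conf
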