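import Cfsg.Agent.H313.WfOm.Row
import Cfsg.Agent.H174.WT.Kill

/-!
# S3826: the triality row, `3 ∤ q` (helper174, task 4026)

`tri_row` : the hypothesis `H313.WfOm.TriRow`.
-/

set_option autoImplicit false
set_option linter.unusedSectionVars false

namespace Cfsg.Agent.H174.WT.Row

universe u v

open Subgroup Cfsg Cfsg.Agent.H533.Wf Cfsg.Agent.H313.WfOm
open Cfsg.Agent.LieClassical.OrthCore Cfsg.Agent.ClassicalGeometry.OrthAut1
  Cfsg.Agent.LieClassical.OrthSimple

/-- The configuration in `Aut K`, with the induced automorphisms. -/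
theorem exists_acfg {p : ℕ} {G : Type u} [Group G] [Finite G] {S : Subgroup G} {C D : Set G}
    (h : Cfg p S C D) {K : Type v} [Group K] (e : S ≃* K) :
    ∃ (Γ : Subgroup (MulAut K)) (C' D' : Set (MulAut K)), ACfg p Γ C' D' ∧
      ∀ c ∈ C, ∀ ψ : MulAut K, Ind e c ψ → ψ ∈ C' := by
  have hSn := h.normal
  have hSf : Finite S := inferInstance
  have hKf : Finite K := Finite.of_equiv S e.toEquiv
  -- the homomorphism
  let φ : G →* MulAut K := (MulAut.congr e).toMonoidHom.comp (MulAut.conjNormal (H := S))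
  have hφa : ∀ (g : G) (s : S), φ g (e s) = e (MulAut.conjNormal g s) := by
    intro g s
    show (MulAut.congr e (MulAut.conjNormal g)) (e s) = _
    rw [MulAut.congr_apply]
    simp
  have hφ : Function.Injective φ := by
    rw [injective_iff_map_eq_one]
    intro g hg
    have h1 : g ∈ Subgroup.centralizer (S : Set G) := by
      rw [Subgroup.mem_centralizer_iff]
      intro s hs
      have h2 := hφa g ⟨s, hs⟩
      rw [hg, MulAut.one_apply] at h2
      have h3 : g * s * g⁻¹ = s := by
        have := congrArg Subtype.val (e.injective h2)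
        rw [MulAut.conjNormal_apply] at this
        exact this.symm
      calc s * g = (g * s * g⁻¹) * g := by rw [h3]
        _ = g * s := by group
    rwa [h.cent, Subgroup.mem_bot] at h1
  have hinn : (MulAut.conj : K →* MulAut K).range ≤ φ.range := by
    rintro _ ⟨k, rfl⟩
    refine ⟨((e.symm k : S) : G), ?_⟩
    ext x
    obtain ⟨s, rfl⟩ := e.surjective x
    rw [hφa]
    rw [MulAut.conj_apply]
    have : (MulAut.conjNormal ((e.symm k : S) : G)) s = e.symm k * s * (e.symm k)⁻¹ := by
      apply Subtype.ext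
      rw [MulAut.conjNormal_apply]
      rfl
    rw [this, map_mul, map_mul, map_inv, e.apply_symm_apply]
  let eG : G ≃* φ.range := MonoidHom.ofInjective hφ
  have hcard : Nat.card φ.range = Nat.card G := Nat.card_congr eG.symm.toEquiv
  have hcl : ∀ c d : G, (Subgroup.closure ({c, d} : Set G)).map φ =
      Subgroup.closure ({φ c, φ d} : Set (MulAut K)) := by
    intro c d
    rw [MonoidHom.map_closure, Set.image_pair]
  refine ⟨φ.range, φ '' C, φ '' D, ?_, fun c hc ψ hψ => ⟨c, hc, ?_⟩⟩
  rotate_left
  · ext x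
    obtain ⟨s, rfl⟩ := e.surjective x
    rw [hφa, hψ s (MulAut.conjNormal c s) (MulAut.conjNormal_apply c s)]
  refine
    { inn := hinn
      subC := by rintro _ ⟨c, -, rfl⟩; exact ⟨c, rfl⟩
      subD := by rintro _ ⟨c, -, rfl⟩; exact ⟨c, rfl⟩
      conjC := by
        rintro _ ⟨g, rfl⟩ _ ⟨c, hc, rfl⟩
        exact ⟨_, h.conjC g c hc, by rw [map_mul, map_mul, map_inv]⟩
      conjD := by
        rintro _ ⟨g, rfl⟩ _ ⟨c, hc, rfl⟩
        exact ⟨_, h.conjD g c hc, by rw [map_mul, map_mul, map_inv]⟩
      ordC := by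
        rintro _ ⟨c, hc, rfl⟩
        rw [orderOf_injective φ hφ]; exact h.ordC c hc
      ordD := by
        rintro _ ⟨c, hc, rfl⟩
        rw [orderOf_injective φ hφ]; exact h.ordD c hc
      neC := h.neC.image φ
      neD := h.neD.image φ
      pair := by
        rintro _ ⟨c, hc, rfl⟩ _ ⟨d, hd, rfl⟩
        rw [← hcl]
        exact (h.pair c hc d hd).map φ
      free := by
        rintro _ ⟨c, hc, rfl⟩ _ ⟨d, hd, rfl⟩
        rw [← hcl]
        exact (h.free c hc d hd).map φ
      simple := by have := h.simple; exact e.symm.isSimpleGroup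
      nc := by
        intro hc
        apply h.nc
        refine ⟨⟨fun a b => e.injective ?_⟩⟩
        rw [map_mul, map_mul]
        exact hc.is_comm.comm _ _
      dvd := by rw [← Nat.card_congr e.toEquiv]; exact h.dvd
      ih := by
        intro X _ _ hX
        obtain ⟨Y, _, _, ⟨f⟩⟩ := exists_copy.{u, v} X
        refine Thm.congr f (h.ih Y ?_)
        rw [Nat.card_congr f.toEquiv, ← hcard]
        exact hX }

/-- **The triality row**, `3 ∤ q` (task 4026). -/
theorem tri_row : TriRow.{u} := by
  intro F _ _ h3 G _ _ S C D hcfg e c hc φ hφ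
  by_contra hn
  obtain ⟨Γ, C', D', hA, hC'⟩ := exists_acfg hcfg e
  have : Fintype F := Fintype.ofFinite F
  exact Kill.false_tri (good_four F) h3 hA (hC' c hc φ hφ) hn

/-- **Orthogonal groups, cross characteristic.** -/
theorem wf_omega {K : Type v} [Group K] {r : ℕ} (hr : r ≠ 3)
    (h : Cfsg.IsPOmegaOddChar r K ∨ Cfsg.IsPOmegaPlusChar r K ∨ Cfsg.IsPOmegaMinusChar r K) : WfRow.{u, v} 3 K :=
  wf_omega_cross tri_row hr h

end Cfsg.Agent.H174.WT.Row
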