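import Cfsg.Agent.H862.T5.ORow
import Cfsg.Agent.H174.WT.Four

/-!
# S3826, triality rows: semisimilarities of order three (helper174)

`exists_good` : a semisimilarity `M` of order three modulo scalars has a conjugate by an element of `E Q` which
normalises the three copies of `SL(2, F)` and is not trivial on the last one.
-/

set_option autoImplicit false
set_option linter.unusedSectionVars false

namespace Cfsg.Agent.H174.WT.Typ

open Module QuadraticMap Matrix Cfsg.Agent.LieClassical.OrthCore Cfsg.Agent.LieClassical.OrthTrans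
  Cfsg.Agent.LieClassical.OrthSimple Cfsg.Agent.ClassicalGeometry.OrthAut1
  Cfsg.Agent.ClassicalGeometry.OrthSemi Cfsg.Agent.H198.Classes
  Cfsg.Agent.LieClassical.QuadForms Cfsg.Agent.H198.ClassesPlus
  Cfsg.Agent.ClassicalGeometry.TrialityOct Cfsg.Agent.ClassicalGeometry.Triality
  Cfsg.Agent.ClassicalGeometry.TrialitySpaces Cfsg.Agent.H198.TriBase Cfsg.Agent.H198.TriAut
open Cfsg.Agent.H862.T5.OPlusFour (M2 detQ detQ_apply polar_detQ detQ_eq_det nondeg_detQ Fr4 cols cols_apply TR finrank_M2)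
open Cfsg.Agent.H862.T5.OFrame (Emb Cov exists_common)
open Cfsg.Agent.H862.T5.OBase (exists_scal Psi_E)
open Cfsg.Agent.H957.T5V (Semi IsScal Scl toA smulA smulA_apply)
open Cfsg.Agent.H208.Parity (ofO ofO_apply)
open Cfsg.Agent.H174.WT.Abs Cfsg.Agent.H174.WT.SL Cfsg.Agent.H174.WT.Mod Cfsg.Agent.H174.WT.Four
open scoped MatrixGroups

universe u

variable {F : Type u} [Field F]

theorem isScal_of_cube (hG : Good (plusForm 4 F)) {M : G8 F} (h : Psi (plusForm 4 F) M ^ 3 = 1) :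
    ∃ a : Fˣ, ∀ v, M.1 (M.1 (M.1 v)) = (a : F) • v := by
  obtain ⟨a, ha⟩ := exists_scal hG (M := M ^ 3) (by rw [map_pow, h])
  refine ⟨a, fun v => ?_⟩
  have h1 : (M ^ 3).1 v = (scal (plusForm 4 F) a).1 v := by rw [ha]
  exact h1

theorem not_isScal (hG : Good (plusForm 4 F)) {M : G8 F} (h : Psi (plusForm 4 F) M ≠ 1) : ¬ IsScal F M.1 := by
  rintro ⟨a, ha⟩
  apply h
  have ha0 : a ≠ 0 := by
    rintro rfl
    have h1 := ha (one8 F)
    have h2 := ha 0
    rw [zero_smul] at h1 h2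
    have h3 := M.1.injective (h1.trans h2.symm)
    have h4 := norm_one8 (F := F)
    rw [h3, QuadraticMap.map_zero] at h4
    exact zero_ne_one h4
  have : M = scal (plusForm 4 F) (Units.mk0 a ha0) := by
    apply Subtype.ext
    ext1 v
    exact ha v
  rw [this]
  exact H208.ConjSS.Psi_scal hG _

theorem zmod3_cases : ∀ t : ZMod 3, t ≠ 0 → t = 1 ∨ (t ^ 2 = 1 ∧ t ≠ 1) := by decide

theorem fr4 [Fintype F] (hG : Good (plusForm 4 F)) (h3 : (3 : F) ≠ 0) {M : G8 F}
    (hM3 : Psi (plusForm 4 F) M ^ 3 = 1) (hM1 : Psi (plusForm 4 F) M ≠ 1) : Fr4 (plusForm 4 F) M.1 := by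
  have : Fact (Nat.Prime 3) := ⟨Nat.prime_three⟩
  have h3' : ((3 : ℕ) : F) ≠ 0 := by exact_mod_cast h3
  obtain ⟨a, ha⟩ := isScal_of_cube hG hM3
  have hs : IsScal F (M.1 ^ 3) := ⟨a, fun v => ha v⟩
  rcases H862.T5.ORow.exists_norm Nat.prime_three (by decide) hG M hs (not_isScal hG hM1) with
    ⟨g, hg, s, hs0, hgs⟩ | ⟨σ, M', hM', s, hs0, hgs⟩
  · have hq : (Fintype.card F : ZMod 3) ≠ 0 := by
      rw [Ne, ZMod.natCast_eq_zero_iff]
      exact H862.T5.OBlock.not_dvd_card h3'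
    have he : orderOf (Fintype.card F : ZMod 3) = 1 ∨ orderOf (Fintype.card F : ZMod 3) = 2 := by
      rcases zmod3_cases _ hq with h | ⟨h, h'⟩
      · left; rw [h]; exact orderOf_one
      · right; exact orderOf_eq_prime h h'
    refine Fr4.of_smul (Units.mk0 s hs0) ?_
    have e : smulA (Units.mk0 s hs0) M.1 = toA g := by
      ext1 v
      rw [smulA_apply, hgs]
      rfl
    rw [e]
    exact H862.T5.OMain.NLin.fr4 hG (by decide) h3' he hg
  · refine Fr4.of_smul (Units.mk0 s hs0) ?_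
    have e : smulA (Units.mk0 s hs0) M.1 = M' := by
      ext1 v
      rw [smulA_apply, hgs]
      rfl
    rw [e]
    exact H862.T5.OMain.NNl.fr4 Nat.prime_three hG hM'

/-- `M` preserves the summands if it acts bijectively on the first one. -/
theorem spl_of_left {M : G8 F} {x' : Equiv.Perm (M2 F)} (h : ∀ X, M.1 (J X 0) = J (x' X) 0) : Spl M := by
  refine ⟨fun X => ⟨_, h X⟩, fun Y => ⟨p1 (M.1 (J 0 Y)), ?_⟩⟩
  have h1 : p0 (M.1 (J 0 Y)) = 0 := by
    apply nondeg_detQ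
    intro Z
    obtain ⟨X, rfl⟩ := x'.surjective Z
    obtain ⟨σ, c, hs⟩ := M.2
    have e := hs.polar (J 0 Y) (J X 0)
    have e2 : QuadraticMap.polar (plusForm 4 F) (J 0 Y) (J X 0) = 0 := by
      rw [polar_J]
      simp [QuadraticMap.polar]
    rw [e2, map_zero, mul_zero, h, ← J_p (M.1 (J 0 Y)), polar_J] at e
    have e3 : QuadraticMap.polar (detQ F) (p1 (M.1 (J 0 Y))) 0 = 0 := by simp [QuadraticMap.polar]
    rw [e3, add_zero] at e
    exact e
  conv_lhs => rw [← J_p (M.1 (J 0 Y)), h1]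

/-- `M` preserves the summands if it acts bijectively on the second one. -/
theorem spl_of_right {M : G8 F} {x' : Equiv.Perm (M2 F)} (h : ∀ Y, M.1 (J 0 Y) = J 0 (x' Y)) : Spl M := by
  refine ⟨fun X => ⟨p0 (M.1 (J X 0)), ?_⟩, fun Y => ⟨_, h Y⟩⟩
  have h1 : p1 (M.1 (J X 0)) = 0 := by
    apply nondeg_detQ
    intro Z
    obtain ⟨Y, rfl⟩ := x'.surjective Z
    obtain ⟨σ, c, hs⟩ := M.2
    have e := hs.polar (J X 0) (J 0 Y)
    have e2 : QuadraticMap.polar (plusForm 4 F) (J X 0) (J 0 Y) = 0 := by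
      rw [polar_J]
      simp [QuadraticMap.polar]
    rw [e2, map_zero, mul_zero, h, ← J_p (M.1 (J X 0)), polar_J] at e
    have e3 : QuadraticMap.polar (detQ F) (p0 (M.1 (J X 0))) 0 = 0 := by simp [QuadraticMap.polar]
    rw [e3, zero_add] at e
    exact e
  conv_lhs => rw [← J_p (M.1 (J X 0)), h1]

/-- semilinear permutations of `F²` in matrix form -/
theorem exists_matrix {σ : F ≃+* F} {c : Equiv.Perm (Fin 2 → F)} (hc : Semi σ c) :
    ∃ A : M2 F, (∀ X : M2 F, cols c X = A * X.map σ) ∧ ∀ v, c v = A.mulVec (σ ∘ v) := by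
  let A : M2 F := Matrix.of fun i k => c (Pi.single k 1) i
  have h : ∀ v, c v = A.mulVec (σ ∘ v) := by
    intro v
    have e : v = v 0 • Pi.single 0 1 + v 1 • Pi.single 1 1 := by
      funext i
      fin_cases i <;> simp
    conv_lhs => rw [e]
    rw [hc.add, hc.smul, hc.smul]
    funext i
    simp [A, Matrix.mulVec, dotProduct, Fin.sum_univ_two, mul_comm]
  refine ⟨A, fun X => ?_, h⟩
  ext i k
  rw [cols_apply, h]
  rfl

/-- a semilinear map commuting with `SL(2, F)` is a scalar -/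
theorem isScal_of_comm {σ : F ≃+* F} {c : Equiv.Perm (Fin 2 → F)} (hc : Semi σ c) {A : M2 F}
    (hA : ∀ v, c v = A.mulVec (σ ∘ v)) (h : ∀ g : SL(2, F), g.1 * A = A * g.1.map σ) : IsScal F c := by
  have hcomm : ∀ (g : SL(2, F)) v, c (g.1.mulVec v) = g.1.mulVec (c v) := by
    intro g v
    rw [hA, hA, Matrix.mulVec_mulVec, h]
    have : σ ∘ (g.1.mulVec v) = (g.1.map σ).mulVec (σ ∘ v) := by
      funext i
      fin_cases i <;> simp [Matrix.mulVec, dotProduct, Fin.sum_univ_two]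
    rw [this, Matrix.mulVec_mulVec]
  have hdet : (!![1, 1; 0, 1] : M2 F).det = 1 := by simp [Matrix.det_fin_two_of]
  -- the image of the first basis vector
  have h1 : c ![1, 0] 1 = 0 := by
    have e := hcomm ⟨_, hdet⟩ ![1, 0]
    have e1 : (!![1, 1; 0, 1] : M2 F).mulVec ![1, 0] = ![1, 0] := by
      funext i
      fin_cases i <;> simp [Matrix.mulVec, dotProduct, Fin.sum_univ_two]
    have e2 := congrFun e 0
    change c ((!![1, 1; 0, 1] : M2 F).mulVec ![1, 0]) 0 = (!![1, 1; 0, 1] : M2 F).mulVec (c ![1, 0]) 0 at e2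
    rw [e1] at e2
    simp [Matrix.mulVec, dotProduct, Fin.sum_univ_two] at e2
    exact e2
  have h2 : c ![1, 0] = c ![1, 0] 0 • ![1, 0] := by
    funext i
    fin_cases i
    · simp
    · simpa using h1
  refine ⟨c ![1, 0] 0, fun v => ?_⟩
  by_cases hv : v = 0
  · rw [hv, hc.zero, smul_zero]
  obtain ⟨g, hg⟩ : ∃ g : SL(2, F), g.1.mulVec ![1, 0] = v := by
    by_cases h0 : v 0 = 0
    · have h10 : v 1 ≠ 0 := by
        intro h10
        apply hv
        funext i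
        fin_cases i
        · exact h0
        · exact h10
      refine ⟨⟨!![0, -(v 1)⁻¹; v 1, 0], by rw [Matrix.det_fin_two_of]; field_simp; ring⟩, ?_⟩
      funext i
      fin_cases i <;> simp [Matrix.mulVec, dotProduct, Fin.sum_univ_two, h0]
    · refine ⟨⟨!![v 0, 0; v 1, (v 0)⁻¹], by rw [Matrix.det_fin_two_of]; field_simp; ring⟩, ?_⟩
      funext i
      fin_cases i <;> simp [Matrix.mulVec, dotProduct, Fin.sum_univ_two]
  rw [← hg, hcomm, h2, Matrix.mulVec_smul]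
  simp

theorem conj_Psi_E {T : V8 F ≃ₗ[F] V8 F} (hT : T ∈ E (plusForm 4 F)) (M : G8 F) :
    MulAut.conj (QuotientGroup.mk (⟨T, hT⟩ : ↥(E (plusForm 4 F))) : P8 F) * Psi (plusForm 4 F) M *
      (MulAut.conj (QuotientGroup.mk (⟨T, hT⟩ : ↥(E (plusForm 4 F))) : P8 F))⁻¹ =
        Psi (plusForm 4 F) (ofO T (E_le_O hT) * M * (ofO T (E_le_O hT))⁻¹) := by
  rw [MonoidHom.map_mul, MonoidHom.map_mul, MonoidHom.map_inv, Psi_E hT]

/-- the action of a semisimilarity which fixes the two components, and acts by `c` on the columns of the first one -/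
theorem good_core [Fintype F] (hG : Good (plusForm 4 F)) {M₁ : G8 F} (hM3 : Psi (plusForm 4 F) M₁ ^ 3 = 1)
    {x' : Equiv.Perm (M2 F)} {σ : F ≃+* F} {c : Equiv.Perm (Fin 2 → F)} (hc : Semi σ c) {A B : M2 F}
    (hAv : ∀ v, c v = A.mulVec (σ ∘ v)) (hcn : ¬ IsScal F c) (hx' : ∀ X, x' X = A * X.map σ * B)
    (hX : ∀ X, M₁.1 (J X 0) = J (x' X) 0) :
    (∀ i, ∃ ξ ∈ SC F, Acts a3 (Psi (plusForm 4 F) M₁) i i ξ) ∧ ¬ Acts a3 (Psi (plusForm 4 F) M₁) 2 2 1 := by
  have hS : Spl M₁ := spl_of_left hX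
  obtain ⟨τ, m, hs⟩ := M₁.2
  have hdet : A.det ≠ 0 ∧ B.det ≠ 0 := by
    have h1 := hs.form (J 1 0)
    rw [hX, norm_J, norm_J, hx', Matrix.det_zero, add_zero, add_zero, Matrix.det_mul, Matrix.det_mul, Four.det_map',
      Matrix.det_one, map_one, map_one, mul_one, mul_one] at h1
    constructor
    · intro h0
      rw [h0, zero_mul] at h1
      exact hs.ne h1.symm
    · intro h0
      rw [h0, mul_zero] at h1
      exact hs.ne h1.symm
  have hL : Lft M₁ A B σ := ⟨hdet.1, hdet.2, fun X => by rw [hX, hx']⟩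
  have hR : ∃ A' B', Rgt M₁ A' B' τ := by
    obtain ⟨A', B', h | h⟩ := (four hS hs).2
    · exact ⟨A', B', h⟩
    · exfalso
      obtain ⟨l, hl⟩ := isScal_of_cube hG (M := M₁) hM3
      exact not_cube h l.ne_zero hl
  obtain ⟨A', B', hR⟩ := hR
  refine ⟨fun i => ?_, fun h1 => hcn ?_⟩
  · fin_cases i
    · exact hL.acts0 hG hS
    · exact hR.acts hG hS
    · exact hL.acts2 hG hS
  · refine isScal_of_comm hc hAv fun g => ?_
    have hA' : IsUnit A.det := isUnit_iff_ne_zero.mpr hdet.1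
    obtain ⟨k, hkA⟩ : ∃ k : SL(2, F), k.1 * A = A * g.1.map σ := by
      have hg : (A * g.1.map σ * A⁻¹).det = 1 := by
        rw [Matrix.det_mul, Matrix.det_mul, Four.det_map', g.2, map_one, mul_one, ← Matrix.det_mul,
          Matrix.mul_nonsing_inv _ hA', Matrix.det_one]
      refine ⟨⟨_, hg⟩, ?_⟩
      show A * g.1.map σ * A⁻¹ * A = _
      rw [mul_assoc, Matrix.nonsing_inv_mul _ hA', mul_one]
    have h2 : Psi (plusForm 4 F) M₁ (a3 2 g) = a3 2 k := by
      refine psi_l3 fun X Y => ?_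
      obtain ⟨Y', hY'⟩ := hS.2 Y
      show M₁.1 (lC g (J X Y)) = lC k (M₁.1 (J X Y))
      rw [lC_J, hS.apply (hL.2.2 _) hY', hS.apply (hL.2.2 _) hY', lC_J, map_mul_map, ← mul_assoc, ← mul_assoc,
        ← mul_assoc, hkA]
    have h4 := h1 g
    rw [h2, MulAut.one_apply] at h4
    have h5 := (three hG).inj 2 h4
    rw [← hkA, h5]

/-- **Semisimilarities of order three.** -/
theorem exists_good [Fintype F] (hG : Good (plusForm 4 F)) (h3 : (3 : F) ≠ 0) {M : G8 F}
    (hM3 : Psi (plusForm 4 F) M ^ 3 = 1) (hM1 : Psi (plusForm 4 F) M ≠ 1) :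
    ∃ k : P8 F, (∀ i, ∃ ξ ∈ SC F, Acts a3 (MulAut.conj k * Psi (plusForm 4 F) M * (MulAut.conj k)⁻¹) i i ξ) ∧
      ¬ Acts a3 (MulAut.conj k * Psi (plusForm 4 F) M * (MulAut.conj k)⁻¹) 2 2 1 := by
  obtain ⟨j, x', σ, c, hj, hcov, hc, ⟨B, hB⟩, hcn⟩ := fr4 hG h3 hM3 hM1
  obtain ⟨T, hT, hTj⟩ := exists_common hG nondeg_detQ (emb_j0 (F := F)) hj (by
    rw [finrank_M2]
    simp)
  obtain ⟨A, hA, hAv⟩ := exists_matrix hc
  refine ⟨QuotientGroup.mk (⟨T, hT⟩ : ↥(E (plusForm 4 F))), ?_⟩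
  have hM3' : Psi (plusForm 4 F) (ofO T (E_le_O hT) * M * (ofO T (E_le_O hT))⁻¹) ^ 3 = 1 := by
    rw [← conj_Psi_E hT M, conj_pow, hM3, mul_one, mul_inv_cancel]
  have hX : ∀ X, (ofO T (E_le_O hT) * M * (ofO T (E_le_O hT))⁻¹).1 (J X 0) = J (x' X) 0 := by
    intro X
    have e1 : (ofO T (E_le_O hT)).1 (j X) = J X 0 := hTj X
    have e2 : (ofO T (E_le_O hT))⁻¹.1 (J X 0) = j X := by
      rw [← e1]
      exact (ofO T (E_le_O hT)).1.symm_apply_apply _
    show (ofO T (E_le_O hT)).1 (M.1 ((ofO T (E_le_O hT))⁻¹.1 (J X 0))) = _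
    rw [e2, hcov]
    exact hTj _
  rw [conj_Psi_E hT M]
  exact good_core hG hM3' hc hAv hcn (fun X => by rw [hB, hA]) hX

end Cfsg.Agent.H174.WT.Typ
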